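import Groth.Agent.Ega4fib.H117.EquidimDim
import Groth.Agent.Ega4fib.H113.DimFibre
import Groth.Agent.Ega4fib.H118.FibreStalkDim
import Groth.Agent.Ega4fib.H174.EquidimCrit
import Groth.Agent.VarietyA.LocDim
import Groth.Agent.CalgC.DimFT
import Groth.Agent.Ega4A.EquidimFlat

/-!
# The dimension formula at a point and at the generic points of the fibre

* `ringKrullDim_stalk_add_le`: `dim O_{X,ζ} + dim O_{closure ζ, x} ≤ dim O_{X,x}`.
* `exists_specializes_dim_eq`: a component of maximal dimension through `x`.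
* `exists_rtd_eq_add`: some point `w` of the fibre through `x` with `w ⤳ x` has
  `trdeg κ(w)/κ(f w) = dim O_{X_y,x} + trdeg κ(x)/κ(f x)`.
* `fibreDimAt_eq_add`, `fibreDimAt_eq_of_fibGeneric`.
* `dim_formula_iff`.
-/

set_option autoImplicit false
open CategoryTheory AlgebraicGeometry TopologicalSpace Topology
universe u

namespace Groth.Agent.Ega4fib.H129.DimFib

open Groth.Agent.CycB.RelDim Groth.Agent.CycB.LocQuot Groth.Agent Groth.Agent.Ega4fib

variable {X Y : Scheme.{u}}

theorem ringKrullDim_stalk_add_le {x ζ : X} (h : ζ ⤳ x) :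
    ringKrullDim (X.presheaf.stalk ζ) + ringKrullDim (Cyc.LocQuot x ζ h) ≤
      ringKrullDim (X.presheaf.stalk x) := by
  let := (X.presheaf.stalkSpecializes h).hom.toAlgebra
  have := isLocalization_stalkSpecializes h
  have hp : (RingHom.ker (Cyc.specMap x ζ h)).IsPrime := RingHom.ker_isPrime _
  rw [IsLocalization.AtPrime.ringKrullDim_eq_height (RingHom.ker (Cyc.specMap x ζ h))
    (X.presheaf.stalk ζ)]
  exact CalgC.DimFT.height_add_ringKrullDim_quotient_le _

theorem exists_specializes_dim_eq [IsLocallyNoetherian X] (x : X) :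
    ∃ (ζ : X) (h : ζ ⤳ x), ringKrullDim (Cyc.LocQuot x ζ h) = ringKrullDim (X.presheaf.stalk x) := by
  obtain ⟨p, hp, e⟩ := Ega4A.EquidimFlat.exists_minimalPrimes_dim_eq'
    (R := X.presheaf.stalk x)
  obtain ⟨ζ, hζ, rfl, -⟩ := H117.EquidimDim.exists_point_of_mem_minimalPrimes x p hp
  exact ⟨ζ, hζ, e⟩

theorem ringKrullDim_locQuot_le {x ζ : X} (h : ζ ⤳ x) :
    ringKrullDim (Cyc.LocQuot x ζ h) ≤ ringKrullDim (X.presheaf.stalk x) :=
  ringKrullDim_quotient_le _

theorem ringKrullDim_stalk_subsingleton [Subsingleton X] (x : X) :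
    ringKrullDim (X.presheaf.stalk x) = 0 := by
  rw [ringKrullDim_stalk_eq_coheight]
  have : Order.coheight x = 0 := by
    rw [Order.coheight_eq_zero]
    intro y _
    rw [Subsingleton.elim x y]
  rw [this]
  rfl

/-- Some point of the fibre through `x` has maximal relative transcendence degree. -/
theorem exists_rtd_eq_add (f : X ⟶ Y) [LocallyOfFiniteType f] (x : X) (c t : ℕ)
    (hc : ringKrullDim ((f.fiber (f x)).presheaf.stalk (f.asFiber x)) = c) (ht : rtd f x = t) :
    ∃ w : X, w ⤳ x ∧ f w = f x ∧ rtd f w = ((c + t : ℕ) : Cardinal.{u}) := by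
  have hft : LocallyOfFiniteType (f.fiberToSpecResidueField (f x)) :=
    inferInstanceAs (LocallyOfFiniteType (Limits.pullback.snd f (Y.fromSpecResidueField (f x))))
  have hN : IsLocallyNoetherian (f.fiber (f x)) :=
    LocallyOfFiniteType.isLocallyNoetherian (f.fiberToSpecResidueField (f x))
  obtain ⟨w', hw', e⟩ := exists_specializes_dim_eq (f.asFiber x)
  obtain ⟨m, n, hm, hn, e'⟩ := H117.DimStalk.dimension_formula (f.fiberToSpecResidueField (f x))
    (CycA.SetupField.isUniversallyCatenary_stalk_Spec (Y.residueField (f x)) _) hw'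
  rw [rtd_fiberToSpecResidueField, rtd_fiberToSpecResidueField, Scheme.Hom.fiberι_asFiber, ht] at e'
  have hn0 : n = 0 := by
    have h1 : (n : WithBot ℕ∞) ≤ 0 := by
      rw [hn]
      refine (ringKrullDim_locQuot_le _).trans ?_
      rw [ringKrullDim_stalk_subsingleton]
    have h2 : n ≤ 0 := by exact_mod_cast h1
    exact le_antisymm h2 bot_le
  have hmc : m = c := by
    rw [e, hc] at hm
    exact_mod_cast hm
  rw [hn0, hmc] at e'
  refine ⟨f.fiberι (f x) w', ?_, ?_, ?_⟩
  · have := hw'.map (f.fiberι (f x)).continuous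
    rwa [Scheme.Hom.fiberι_asFiber] at this
  · have : f.fiberι (f x) w' ∈ Set.range (f.fiberι (f x)) := ⟨w', rfl⟩
    rw [Scheme.Hom.range_fiberι] at this
    exact this
  · have h3 : ((c : ℕ∞) : Cardinal.{u}) + (t : Cardinal.{u}) =
      ((0 : ℕ∞) : Cardinal.{u}) + rtd f (f.fiberι (f x) w') := e'
    simp only [Cardinal.ofENat_nat, Cardinal.ofENat_zero, zero_add] at h3
    rw [← h3]
    push_cast
    rfl

theorem fibreDimAt_eq_add (f : X ⟶ Y) [LocallyOfFiniteType f] (x : X) (c t : ℕ)
    (hc : ringKrullDim ((f.fiber (f x)).presheaf.stalk (f.asFiber x)) = c) (ht : rtd f x = t) :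
    FlatMor.fibreDimAt f x = ((c + t : ℕ) : WithBot ℕ∞) := by
  refine le_antisymm (VarietyA.LocDim.fibreDimAt_le f x _ fun z h1 h2 =>
    H118.FibreStalkDim.rtd_le_add f h1 h2 c t hc ht) ?_
  obtain ⟨w, h1, h2, h3⟩ := exists_rtd_eq_add f x c t hc ht
  obtain ⟨n, hn, hn'⟩ := VarietyA.LocDim.le_fibreDimAt f x w h1 h2
  have : n = c + t := by
    rw [h3] at hn
    exact_mod_cast hn.symm
  rwa [this] at hn'

theorem fibreDimAt_eq_of_fibGeneric (f : X ⟶ Y) [LocallyOfFiniteType f] {z : X}
    (h : ∀ z' : X, f z' = f z → z' ⤳ z → z' = z) (r : ℕ) (hr : rtd f z = r) :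
    FlatMor.fibreDimAt f z = (r : WithBot ℕ∞) := by
  refine le_antisymm (VarietyA.LocDim.fibreDimAt_le f z _ fun z' h1 h2 => ?_) ?_
  · rw [h z' h2 h1, hr]
  · obtain ⟨n, hn, hn'⟩ := VarietyA.LocDim.le_fibreDimAt f z z specializes_rfl rfl
    have : n = r := by
      rw [hr] at hn
      exact_mod_cast hn.symm
    rwa [this] at hn'

/-- In the fibre: `dim O_{closure z, x} + rtd x = rtd z`. -/
theorem ringKrullDim_asFiber_of_fibGeneric (f : X ⟶ Y) [LocallyOfFiniteType f] {z : X}
    (h : ∀ z' : X, f z' = f z → z' ⤳ z → z' = z) :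
    ringKrullDim ((f.fiber (f z)).presheaf.stalk (f.asFiber z)) = 0 := by
  have hft : LocallyOfFiniteType (f.fiberToSpecResidueField (f z)) :=
    inferInstanceAs (LocallyOfFiniteType (Limits.pullback.snd f (Y.fromSpecResidueField (f z))))
  have hN : IsLocallyNoetherian (f.fiber (f z)) :=
    LocallyOfFiniteType.isLocallyNoetherian (f.fiberToSpecResidueField (f z))
  obtain ⟨c, hc⟩ := H118.FibreStalkDim.exists_nat_ringKrullDim
    ((f.fiber (f z)).presheaf.stalk (f.asFiber z))
  obtain ⟨t, ht⟩ := Cardinal.lt_aleph0.1 (rtd_lt_aleph0 f z)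
  have h1 := fibreDimAt_eq_add f z c t hc ht
  rw [fibreDimAt_eq_of_fibGeneric f h t ht] at h1
  have h2 : t = c + t := by exact_mod_cast h1
  have h3 : c = 0 := by omega
  rw [hc, h3]
  rfl

theorem ringKrullDim_locQuot_self {y' y : X} (h : y' ⤳ y) (e : y' = y) :
    ringKrullDim (Cyc.LocQuot y y' h) = 0 := by
  subst e
  have hs : Function.Surjective (Cyc.specMap y' y' h) := by
    unfold Cyc.specMap
    rw [TopCat.Presheaf.stalkSpecializes_refl]
    exact X.residue_surjective y'
  have e : Cyc.LocQuot y' y' h ≃+* X.residueField y' :=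
    RingHom.quotientKerEquivOfSurjective hs
  exact (ringKrullDim_eq_of_ringEquiv e).trans (ringKrullDim_eq_zero_of_field _)

/-- The dimension formula inside a fibre: `dim O_{closure z, x} + rtd x = rtd z`. -/
theorem ringKrullDim_locQuot_fibre (f : X ⟶ Y) [LocallyOfFiniteType f] {x z : X} (h : z ⤳ x)
    (hf : f z = f x) (hcat : CAlg.IsUniversallyCatenary (Y.presheaf.stalk (f x)))
    (t r : ℕ) (ht : rtd f x = t) (hr : rtd f z = r) :
    ∃ d : ℕ, d + t = r ∧ (d : WithBot ℕ∞) = ringKrullDim (Cyc.LocQuot x z h) := by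
  obtain ⟨m, n, hm, hn, e'⟩ := H117.DimStalk.dimension_formula f hcat h
  rw [ht, hr] at e'
  have hn0 : n = 0 := by
    rw [ringKrullDim_locQuot_self _ hf] at hn
    exact_mod_cast hn
  rw [hn0] at e'
  have e2 : (m : Cardinal.{u}) + ((t : ℕ∞) : Cardinal.{u}) = ((r : ℕ∞) : Cardinal.{u}) := by
    simpa using e'
  rw [← Cardinal.ofENat_add, Cardinal.ofENat_inj] at e2
  obtain ⟨d, rfl⟩ : ∃ d : ℕ, m = d := by
    have : m ≠ ⊤ := by
      rintro rfl
      rw [top_add] at e2
      exact ENat.natCast_ne_top r e2.symm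
    obtain ⟨d, hd⟩ := ENat.ne_top_iff_exists.1 this
    exact ⟨d, hd.symm⟩
  exact ⟨d, by exact_mod_cast e2, by exact_mod_cast hm⟩

/-- The dimension formula with natural numbers. -/
theorem dimension_formula_nat (f : X ⟶ Y) [LocallyOfFiniteType f] {x z : X} (h : z ⤳ x)
    [IsLocallyNoetherian Y]
    (hcat : CAlg.IsUniversallyCatenary (Y.presheaf.stalk (f x)))
    (t r : ℕ) (ht : rtd f x = t) (hr : rtd f z = r) :
    ∃ m n : ℕ, (m : WithBot ℕ∞) = ringKrullDim (Cyc.LocQuot x z h) ∧
      (n : WithBot ℕ∞) = ringKrullDim (Cyc.LocQuot (f x) (f z) (h.map f.continuous)) ∧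
      m + t = n + r := by
  obtain ⟨m, n, hm, hn, e'⟩ := H117.DimStalk.dimension_formula f hcat h
  rw [ht, hr] at e'
  have e2 : (m : Cardinal.{u}) + ((t : ℕ∞) : Cardinal.{u}) =
      (n : Cardinal.{u}) + ((r : ℕ∞) : Cardinal.{u}) := by
    simpa using e'
  rw [← Cardinal.ofENat_add, ← Cardinal.ofENat_add, Cardinal.ofENat_inj] at e2
  obtain ⟨D, hD⟩ := H118.FibreStalkDim.exists_nat_ringKrullDim (Y.presheaf.stalk (f x))
  obtain ⟨n', rfl⟩ : ∃ d : ℕ, n = d := by
    have h1 : (n : WithBot ℕ∞) ≤ (D : WithBot ℕ∞) := by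
      rw [hn, ← hD]
      exact ringKrullDim_locQuot_le _
    have h2 : n ≤ (D : ℕ∞) := by exact_mod_cast h1
    obtain ⟨d, hd⟩ := ENat.ne_top_iff_exists.1 (ne_top_of_le_ne_top (ENat.natCast_ne_top D) h2)
    exact ⟨d, hd.symm⟩
  obtain ⟨d, rfl⟩ : ∃ d : ℕ, m = d := by
    have : m ≠ ⊤ := by
      rintro rfl
      rw [top_add] at e2
      exact ENat.natCast_ne_top (n' + r) (by exact_mod_cast e2.symm)
    obtain ⟨d, hd⟩ := ENat.ne_top_iff_exists.1 this
    exact ⟨d, hd.symm⟩
  exact ⟨d, n', by exact_mod_cast hm, by exact_mod_cast hn, by exact_mod_cast e2⟩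

/-- **EGA IV 13.2.x / 14.2.x**: the dimension formula holds at `x` if and only if it holds at the
generic point of some component of maximal dimension of the fibre through `x`. -/
theorem dim_formula_iff [IsLocallyNoetherian Y] (f : X ⟶ Y) [LocallyOfFiniteType f] (x : X)
    (hcat : CAlg.IsUniversallyCatenary (Y.presheaf.stalk (f x))) :
    ringKrullDim (X.presheaf.stalk x) =
        ringKrullDim (Y.presheaf.stalk (f x)) +
          ringKrullDim ((f.fiber (f x)).presheaf.stalk (f.asFiber x)) ↔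
      ∃ z : X, f z = f x ∧ z ⤳ x ∧ (∀ z' : X, f z' = f x → z' ⤳ z → z' = z) ∧
        FlatMor.fibreDimAt f z = FlatMor.fibreDimAt f x ∧
        ringKrullDim (X.presheaf.stalk z) = ringKrullDim (Y.presheaf.stalk (f z)) := by
  have hX : IsLocallyNoetherian X := LocallyOfFiniteType.isLocallyNoetherian f
  have hft : LocallyOfFiniteType (f.fiberToSpecResidueField (f x)) :=
    inferInstanceAs (LocallyOfFiniteType (Limits.pullback.snd f (Y.fromSpecResidueField (f x))))
  have hN : IsLocallyNoetherian (f.fiber (f x)) :=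
    LocallyOfFiniteType.isLocallyNoetherian (f.fiberToSpecResidueField (f x))
  obtain ⟨c, hc⟩ := H118.FibreStalkDim.exists_nat_ringKrullDim
    ((f.fiber (f x)).presheaf.stalk (f.asFiber x))
  obtain ⟨b, hb⟩ := H118.FibreStalkDim.exists_nat_ringKrullDim (X.presheaf.stalk x)
  obtain ⟨a, ha⟩ := H118.FibreStalkDim.exists_nat_ringKrullDim (Y.presheaf.stalk (f x))
  obtain ⟨t, ht⟩ := Cardinal.lt_aleph0.1 (rtd_lt_aleph0 f x)
  have hfd := fibreDimAt_eq_add f x c t hc ht
  -- the general inequality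
  have hle : ∀ w : X, ringKrullDim (X.presheaf.stalk w) ≤ ringKrullDim (Y.presheaf.stalk (f w)) +
      ringKrullDim ((f.fiber (f w)).presheaf.stalk (f.asFiber w)) := by
    intro w
    have := H113.DimFibre.coheight_le_add_fiber f w
    rw [ringKrullDim_stalk_eq_coheight, ringKrullDim_stalk_eq_coheight,
      ringKrullDim_stalk_eq_coheight]
    exact_mod_cast this
  constructor
  · intro H
    rw [ha, hb, hc] at H
    have H' : b = a + c := by exact_mod_cast H
    obtain ⟨ζ, hζ, hζd⟩ := exists_specializes_dim_eq x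
    obtain ⟨r, hr⟩ := Cardinal.lt_aleph0.1 (rtd_lt_aleph0 f ζ)
    obtain ⟨m, n, hm, hn, e⟩ := dimension_formula_nat f hζ hcat t r ht hr
    have hmb : m = b := by
      rw [hζd, hb] at hm
      exact_mod_cast hm
    have hna : n ≤ a := by
      have : (n : WithBot ℕ∞) ≤ (a : WithBot ℕ∞) := by
        rw [hn, ← ha]
        exact ringKrullDim_locQuot_le _
      exact_mod_cast this
    obtain ⟨z, hz1, hz2, hz3, hz4⟩ := H174.EquidimCrit.exists_maximal_fib f hζ
    obtain ⟨s, hs⟩ := Cardinal.lt_aleph0.1 (rtd_lt_aleph0 f z)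
    have hrs : r ≤ s := by
      have := H174.EquidimCrit.rtd_le_of_maximal_fib f hz1 hz4
      rw [hr, hs] at this
      exact_mod_cast this
    have hsc : s ≤ c + t := by
      have := H118.FibreStalkDim.rtd_le_add f hz2 hz3 c t hc ht
      rw [hs] at this
      exact_mod_cast this
    have hs' : s = c + t := by omega
    have hr' : r = c + t := by omega
    have hn' : n = a := by omega
    have hzmax : ∀ z' : X, f z' = f x → z' ⤳ z → z' = z := by
      intro z' h1 h2
      by_contra hne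
      have h3 := rtd_lt_of_specializes f h2 hne (h1.trans hz3.symm)
      have h4 := H118.FibreStalkDim.rtd_le_add f (h2.trans hz2) h1 c t hc ht
      rw [hs, hs'] at h3
      exact absurd (h3.trans_le h4) (lt_irrefl _)
    have hzmax' : ∀ z' : X, f z' = f z → z' ⤳ z → z' = z := fun z' h1 h2 =>
      hzmax z' (h1.trans hz3) h2
    refine ⟨z, hz3, hz2, hzmax, ?_, ?_⟩
    · rw [fibreDimAt_eq_of_fibGeneric f hzmax' s hs, hfd, hs']
    · refine le_antisymm ?_ ?_
      · have := hle z
        rwa [ringKrullDim_asFiber_of_fibGeneric f hzmax', add_zero] at this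
      · have hcat' : CAlg.IsUniversallyCatenary (Y.presheaf.stalk (f z)) := by
          rw [hz3]; exact hcat
        obtain ⟨m', n', hm', hn', e'⟩ := dimension_formula_nat f hz1 hcat' s r hs hr
        have h1 : n' = a := by
          have key : ∀ (y : Y) (hy : f ζ ⤳ y), y = f x →
              ringKrullDim (Cyc.LocQuot y (f ζ) hy) = (n : WithBot ℕ∞) := by
            rintro y hy rfl
            exact hn.symm
          rw [key (f z) _ hz3] at hn'
          have : n' = n := by exact_mod_cast hn'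
          omega
        have h2 : ringKrullDim (Y.presheaf.stalk (f z)) = a := by rw [hz3]; exact ha
        have h3 : m' = a := by omega
        rw [h2, ← h3, hm']
        exact ringKrullDim_locQuot_le _
  · rintro ⟨z, hz3, hz2, hzmax, hz4, hz5⟩
    obtain ⟨s, hs⟩ := Cardinal.lt_aleph0.1 (rtd_lt_aleph0 f z)
    have hzmax' : ∀ z' : X, f z' = f z → z' ⤳ z → z' = z := fun z' h1 h2 =>
      hzmax z' (h1.trans hz3) h2
    rw [fibreDimAt_eq_of_fibGeneric f hzmax' s hs, hfd] at hz4
    have hs' : s = c + t := by exact_mod_cast hz4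
    obtain ⟨d, hd, hd'⟩ := ringKrullDim_locQuot_fibre f hz2 hz3 hcat t s ht hs
    have hdc : d = c := by omega
    refine le_antisymm (hle x) ?_
    have h1 := ringKrullDim_stalk_add_le hz2
    have h2 : ringKrullDim (Y.presheaf.stalk (f z)) = a := by rw [hz3]; exact ha
    rw [hz5, h2, ← hd', hdc] at h1
    rw [ha, hc]
    exact h1

end Groth.Agent.Ega4fib.H129.DimFib
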